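import Mathlib.GroupTheory.Sylow
import Mathlib.GroupTheory.QuotientGroup.Basic
import Mathlib.GroupTheory.SpecificGroups.Cyclic

/-!
# Intersections of Sylow subgroups and quotients
-/

set_option autoImplicit false

namespace Cfsg.Agent.SylowInter

open Subgroup
open scoped Pointwise

variable {G : Type*} [Group G] [Finite G] {p : ℕ} [hp : Fact p.Prime]

/-- Every Sylow subgroup of a quotient is the image of a Sylow subgroup. -/
theorem exists_sylow_map {K : Type*} [Group K] [Finite K] (f : G →* K) (hf : Function.Surjective f)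
    (S : Sylow p K) : ∃ S' : Sylow p G, (S' : Subgroup G).map f = S := by
  obtain ⟨S', hS'⟩ := Sylow.mapSurjective_surjective hf p S
  exact ⟨S', congrArg Sylow.toSubgroup hS'⟩

/-- A p-subgroup whose image lies in a Sylow subgroup S of the image lies in a Sylow subgroup
mapping onto S. -/
theorem exists_sylow_map_ge {K : Type*} [Group K] [Finite K] (f : G →* K) (hf : Function.Surjective f)
    (S : Sylow p K) {R : Subgroup G} (hR : IsPGroup p R) (hRS : R.map f ≤ S) :
    ∃ S' : Sylow p G, (S' : Subgroup G).map f = S ∧ R ≤ S' := by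
  obtain ⟨S₀, hS₀⟩ := exists_sylow_map f hf S
  let A : Subgroup G := (S : Subgroup K).comap f
  have h0A : (S₀ : Subgroup G) ≤ A := Subgroup.map_le_iff_le_comap.1 hS₀.le
  have hRA : R ≤ A := Subgroup.map_le_iff_le_comap.1 hRS
  obtain ⟨Q, hQ⟩ := (hR.comap_subtype (K := A)).exists_le_sylow
  obtain ⟨a, ha⟩ := MulAction.exists_smul_eq A (S₀.subtype h0A) Q
  refine ⟨(a : G) • S₀, ?_, ?_⟩
  · have haS : f a ∈ (S : Subgroup K) := a.2
    apply le_antisymm
    · rintro _ ⟨x, hx, rfl⟩
      have hx' : x ∈ MulAut.conj (a : G) • (S₀ : Subgroup G) := hx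
      obtain ⟨y, hy, rfl⟩ := Subgroup.mem_smul_pointwise_iff_exists _ _ _ |>.1 hx'
      have hy' : f y ∈ (S : Subgroup K) := h0A hy
      simp only [MulAut.smul_def, MulAut.conj_apply, map_mul, map_inv]
      exact mul_mem (mul_mem haS hy') (inv_mem haS)
    · intro z hz
      have hz' : (f a)⁻¹ * z * f a ∈ (S : Subgroup K) := mul_mem (mul_mem (inv_mem haS) hz) haS
      rw [← hS₀] at hz'
      obtain ⟨y, hy, hyz⟩ := hz'
      refine ⟨(a : G) * y * (a : G)⁻¹, ?_, ?_⟩
      · show (a : G) * y * (a : G)⁻¹ ∈ MulAut.conj (a : G) • (S₀ : Subgroup G)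
        exact Subgroup.smul_mem_pointwise_smul _ _ _ hy
      · simp [map_mul, hyz, mul_assoc]
  · intro x hx
    have hxQ : (⟨x, hRA hx⟩ : A) ∈ (Q : Subgroup A) := hQ hx
    rw [← ha] at hxQ
    have hxQ' : (⟨x, hRA hx⟩ : A) ∈ MulAut.conj a • ((S₀ : Subgroup G).subgroupOf A) := hxQ
    obtain ⟨y, hy, hyx⟩ := Subgroup.mem_smul_pointwise_iff_exists _ _ _ |>.1 hxQ'
    show x ∈ MulAut.conj (a : G) • (S₀ : Subgroup G)
    have : x = (a : G) * (y : G) * (a : G)⁻¹ := (congrArg Subtype.val hyx).symm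
    rw [this]
    exact Subgroup.smul_mem_pointwise_smul _ _ _ (Subgroup.mem_subgroupOf.1 hy)

/-- The intersection of two distinct Sylow subgroups of a quotient is covered by a p-subgroup lying
in two distinct Sylow subgroups of the group. -/
theorem exists_cover_inter {K : Type*} [Group K] [Finite K] (f : G →* K) (hf : Function.Surjective f)
    {S T : Sylow p K} (hST : S ≠ T) :
    ∃ (S' T' : Sylow p G) (R : Subgroup G), S' ≠ T' ∧ R ≤ (S' : Subgroup G) ⊓ (T' : Subgroup G) ∧
      R.map f = (S : Subgroup K) ⊓ (T : Subgroup K) := by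
  let D : Subgroup K := (S : Subgroup K) ⊓ (T : Subgroup K)
  let X : Subgroup G := D.comap f
  let g : X →* D := (f.comp X.subtype).codRestrict D fun x => x.2
  have hg : Function.Surjective g := fun d => by
    obtain ⟨x, hx⟩ := hf d
    exact ⟨⟨x, show f x ∈ D from hx ▸ d.2⟩, Subtype.ext hx⟩
  obtain ⟨R₀⟩ : Nonempty (Sylow p X) := inferInstance
  have hDp : IsPGroup p D := S.isPGroup'.to_le inf_le_left
  have htop : (R₀ : Subgroup X).map g = ⊤ := by
    have h := (R₀.mapSurjective hg).is_maximal' (hDp.to_subgroup ⊤) le_top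
    exact h.symm
  let R : Subgroup G := (R₀ : Subgroup X).map X.subtype
  have hR : IsPGroup p R := R₀.isPGroup'.map _
  have hRD : R.map f = D := by
    apply le_antisymm
    · rintro _ ⟨_, ⟨x, _, rfl⟩, rfl⟩
      exact x.2
    · intro d hd
      have : (⟨d, hd⟩ : D) ∈ (R₀ : Subgroup X).map g := htop ▸ Subgroup.mem_top _
      obtain ⟨x, hx, hxd⟩ := this
      exact ⟨x, ⟨x, hx, rfl⟩, congrArg Subtype.val hxd⟩
  obtain ⟨S', hS', hRS⟩ := exists_sylow_map_ge f hf S hR (hRD.le.trans inf_le_left)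
  obtain ⟨T', hT', hRT⟩ := exists_sylow_map_ge f hf T hR (hRD.le.trans inf_le_right)
  refine ⟨S', T', R, ?_, le_inf hRS hRT, hRD⟩
  rintro rfl
  exact hST (Sylow.ext (hS'.symm.trans hT'))

theorem isCyclic_inter_quotient (hC : ∀ S T : Sylow p G, S ≠ T →
    IsCyclic ↥((S : Subgroup G) ⊓ (T : Subgroup G))) {K : Type*} [Group K] [Finite K] (f : G →* K)
    (hf : Function.Surjective f) (S T : Sylow p K) (hST : S ≠ T) :
    IsCyclic ↥((S : Subgroup K) ⊓ (T : Subgroup K)) := by
  obtain ⟨S', T', R, hne, hle, hR⟩ := exists_cover_inter f hf hST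
  have := hC S' T' hne
  have : IsCyclic R := isCyclic_of_injective (Subgroup.inclusion hle) (Subgroup.inclusion_injective hle)
  rw [← hR]
  exact isCyclic_of_surjective (f.subgroupMap R) (f.subgroupMap_surjective R)

end Cfsg.Agent.SylowInter
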